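import Cfsg.Agent.Lib.FrobCompl.Struct
import Cfsg.Agent.Lib.Core.Fitting
import Cfsg.Agent.Lib.Dickson.SmallRecog

/-!
# Solvable groups in which every subgroup of order `pq` is cyclic

Such a group is a Z-group, or an extension of a Z-group by the four-group, `A₄` or `S₄`.
-/

set_option autoImplicit false

namespace CfsgLib.FrobCompl

open Subgroup Frob Cfsg

theorem mulAut_Q8_noncomm (α : MulAut Q8) : α ^ 4 = 1 ∨
    ∃ x y : Q8, x⁻¹ * α x * (y⁻¹ * α y) ≠ y⁻¹ * α y * (x⁻¹ * α x) := by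
  have h : ∀ u v : Q8, u * v ≠ v * u → (∀ x, q8fn u v (q8fn u v (q8fn u v (q8fn u v x))) = x) ∨
      ∃ x y : Q8, x⁻¹ * q8fn u v x * (y⁻¹ * q8fn u v y) ≠
        y⁻¹ * q8fn u v y * (x⁻¹ * q8fn u v x) := by decide +kernel
  rcases h _ _ (mulAut_Q8_valid α) with e | e
  · left
    ext1 x
    simpa only [← mulAut_Q8_eq, pow_succ, pow_zero, one_mul, MulAut.mul_apply, MulAut.one_apply]
      using e x
  · right
    simpa only [← mulAut_Q8_eq] using e

variable {G : Type*} [Group G] [Finite G]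

omit [Finite G] in
theorem mem_ker_conjNormal {Q : Subgroup G} [Q.Normal] :
    (MulAut.conjNormal : G →* MulAut Q).ker = centralizer (Q : Set G) := by
  ext g
  rw [MonoidHom.mem_ker, mem_centralizer_iff, MulEquiv.ext_iff]
  simp only [Subtype.forall, Subtype.ext_iff, MulAut.conjNormal_apply, MulAut.one_apply,
    mul_inv_eq_iff_eq_mul, SetLike.mem_coe]
  simp only [eq_comm]

theorem exists_noncomm (h : PQCond G) (hn : ¬ HasNormalPComplement 2 G) :
    ∃ Q : Subgroup G, IsPGroup 2 Q ∧ ∃ g x y : G, (∃ k, g ^ 3 ^ k = 1) ∧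
      x⁻¹ * (g * x * g⁻¹) ∈ Q ∧ y⁻¹ * (g * y * g⁻¹) ∈ Q ∧
      x⁻¹ * (g * x * g⁻¹) * (y⁻¹ * (g * y * g⁻¹)) ≠ y⁻¹ * (g * y * g⁻¹) * (x⁻¹ * (g * x * g⁻¹)) := by
  obtain ⟨Q, ⟨e⟩, g, hg, ⟨k, hk⟩, hgc⟩ := (npc_or_Q8 h).resolve_left hn
  refine ⟨Q, IsPGroup.of_card (n := 3) (by
    rw [Nat.card_congr e.toEquiv, Nat.card_eq_fintype_card, QuaternionGroup.card]; rfl), g, ?_⟩
  rcases mulAut_Q8_noncomm (MulAut.congr e (Q.normalizerMonoidHom ⟨g, hg⟩)) with h1 | ⟨x, y, h1⟩
  · refine absurd ?_ hgc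
    rw [← map_pow, EmbeddingLike.map_eq_one_iff] at h1
    have h2 : Q.normalizerMonoidHom ⟨g, hg⟩ ^ 3 ^ k = 1 := by
      rw [← map_pow, show (⟨g, hg⟩ : normalizer (Q : Set G)) ^ 3 ^ k = 1 from Subtype.ext hk,
        map_one]
    have : (⟨g, hg⟩ : normalizer (Q : Set G)) ∈ Q.normalizerMonoidHom.ker :=
      orderOf_eq_one_iff.1 (Nat.eq_one_of_dvd_coprimes (Nat.Coprime.pow_left k (by norm_num))
        (orderOf_dvd_of_pow_eq_one h2) (orderOf_dvd_of_pow_eq_one h1))
    rwa [normalizerMonoidHom_ker, mem_subgroupOf] at this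
  · have key : ∀ x, (e.symm x : G)⁻¹ * (g * e.symm x * g⁻¹) =
        e.symm (x⁻¹ * MulAut.congr e (Q.normalizerMonoidHom ⟨g, hg⟩) x) := fun x => by
      rw [map_mul, map_inv, MulAut.congr_apply, MulEquiv.trans_apply, MulEquiv.trans_apply,
        MulEquiv.symm_apply_apply]
      rfl
    refine ⟨e.symm x, e.symm y, ⟨k, hk⟩, key x ▸ Subtype.prop _, key y ▸ Subtype.prop _, ?_⟩
    rwa [key, key, ← coe_mul, ← coe_mul, ← map_mul, ← map_mul, Subtype.coe_injective.ne_iff,
      e.symm.injective.ne_iff]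

theorem commute_of_isZGroup {C Q : Subgroup G} [IsZGroup C] {p : ℕ} [Fact p.Prime]
    (hQ : IsPGroup p Q) {a b : G} (ha : a ∈ Q) (hb : b ∈ Q) (ha' : a ∈ C) (hb' : b ∈ C) :
    a * b = b * a := by
  have := (hQ.comap_subtype (K := C)).isCyclic_of_isZGroup
  exact congrArg (fun x : Q.comap C.subtype => ((x : C) : G))
    (this.isMulCommutative.is_comm.comm ⟨⟨a, ha'⟩, ha⟩ ⟨⟨b, hb'⟩, hb⟩)

theorem exists_not_mem_of_isZGroup (h : PQCond G) (hn : ¬ HasNormalPComplement 2 G)
    (C : Subgroup G) [hC : C.Normal] [IsZGroup C] : ∃ g ∉ C, ∃ k, g ^ 3 ^ k = 1 := by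
  obtain ⟨Q, hQ, g, x, y, hk, hx, hy, hxy⟩ := exists_noncomm h hn
  refine ⟨g, fun hg => hxy ?_, hk⟩
  have key : ∀ x, x⁻¹ * (g * x * g⁻¹) ∈ C := fun x => by
    rw [← mul_assoc, ← mul_assoc]
    exact mul_mem (hC.conj_mem' g hg x) (inv_mem hg)
  exact commute_of_isZGroup hQ hx hy (key x) (key y)

theorem exists_four_pair_of_not_isCyclic (h : PQCond G) {T : Subgroup G} (hT : IsPGroup 2 T)
    (hc : ¬ IsCyclic T) : ∃ a ∈ T, ∃ b ∈ T, orderOf a = 4 ∧ orderOf b = 4 ∧ a * b ≠ b * a := by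
  obtain ⟨-, n, hn, ⟨e⟩⟩ := ((h.subgroup T).cyclic_or_quaternion hT).resolve_left hc
  obtain ⟨n, rfl⟩ := Nat.exists_eq_add_of_le' hn
  have h1 : (QuaternionGroup.a (2 ^ n : ℕ) : QuaternionGroup (2 ^ (n + 1))) =
      QuaternionGroup.a 1 ^ 2 ^ n := (QuaternionGroup.a_one_pow _).symm
  have h2 : orderOf (QuaternionGroup.a (2 ^ n : ℕ) : QuaternionGroup (2 ^ (n + 1))) = 4 := by
    rw [h1, orderOf_pow_of_dvd (by positivity) (by
      rw [QuaternionGroup.orderOf_a_one]; exact ⟨4, by ring⟩), QuaternionGroup.orderOf_a_one]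
    exact Nat.div_eq_of_eq_mul_left (by positivity) (by ring)
  refine ⟨e.symm (QuaternionGroup.a (2 ^ n : ℕ)), Subtype.prop _, e.symm (QuaternionGroup.xa 0),
    Subtype.prop _, ?_, ?_, ?_⟩
  · rw [orderOf_coe, e.symm.orderOf_eq, h2]
  · rw [orderOf_coe, e.symm.orderOf_eq, QuaternionGroup.orderOf_xa]
  · rw [← coe_mul, ← coe_mul, ← map_mul, ← map_mul, Subtype.coe_injective.ne_iff,
      e.symm.injective.ne_iff]
    intro e1
    have h3 : (QuaternionGroup.a (2 ^ n : ℕ) : QuaternionGroup (2 ^ (n + 1))) ^ 2 = 1 := by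
      rw [QuaternionGroup.a_mul_xa, QuaternionGroup.xa_mul_a, QuaternionGroup.xa.injEq] at e1
      rw [sq, QuaternionGroup.a_mul_a, QuaternionGroup.one_def, QuaternionGroup.a.injEq]
      linear_combination -e1
    have := orderOf_dvd_of_pow_eq_one h3
    rw [h2] at this
    omega

theorem exists_normal_Q8 [Group.IsSolvable G] (h : PQCond G) (hn : ¬ HasNormalPComplement 2 G) :
    ∃ Q : Subgroup G, Q.Normal ∧ Nonempty (Q ≃* Q8) := by
  refine ⟨pCore 2 G, inferInstance, ?_⟩
  have hT := Core.isPGroup_pCore 2 G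
  by_cases hc : IsCyclic (pCore 2 G)
  · exfalso
    have := Core.fittingSubgroup_normal G
    have := Core.isNilpotent_fittingSubgroup G
    have : IsZGroup (fittingSubgroup G) := isZGroup_of_sylow_two (h.subgroup _) fun P => by
      have h1 := Core.le_pCore_of_le_fittingSubgroup
        (map_subtype_le (P : Subgroup (fittingSubgroup G))) (P.isPGroup'.map _)
      have := isCyclic_of_le h1
      exact isCyclic_of_injective ((fittingSubgroup G).subtype.subgroupMap P)
        (fun x y e => Subtype.ext (Subtype.ext (by have := congrArg Subtype.val e; exact this)))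
    have h2 : IsCyclic (fittingSubgroup G) := inferInstance
    let _ := (h2.mulAutMulEquiv _).toMonoidHom.commGroupOfInjective (h2.mulAutMulEquiv _).injective
    have key : ∀ g x : G, x⁻¹ * (g * x * g⁻¹) ∈ fittingSubgroup G := fun g x => by
      apply Core.centralizer_fittingSubgroup_le
      rw [← mem_ker_conjNormal, MonoidHom.mem_ker]
      simp only [map_mul, map_inv, mul_inv_cancel_comm, inv_mul_cancel]
    obtain ⟨Q, hQ, g, x, y, hk, hx, hy, hxy⟩ := exists_noncomm h hn
    exact hxy (commute_of_isZGroup hQ hx hy (key g x) (key g y))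
  refine (isPGroup_mulAut_or_Q8 (h.subgroup _) hT).resolve_left fun h2 => ?_
  obtain ⟨a, ha, b, hb, h3, h4, h5⟩ := exists_four_pair_of_not_isCyclic h hT hc
  have := isZGroup_of_centralizes h h3 h4 h5 (centralizer (pCore 2 G : Set G))
    fun g hg => ⟨hg a ha, hg b hb⟩
  obtain ⟨g, hg, k, hk⟩ := exists_not_mem_of_isZGroup h hn (centralizer (pCore 2 G : Set G))
  refine hg ?_
  rw [← mem_ker_conjNormal, MonoidHom.mem_ker]
  obtain ⟨j, hj⟩ := h2 (MulAut.conjNormal g)
  exact orderOf_eq_one_iff.1 (Nat.eq_one_of_dvd_coprimes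
    (Nat.Coprime.pow k j (show Nat.Coprime 3 2 by norm_num))
    (orderOf_dvd_of_pow_eq_one (by rw [← map_pow, hk, map_one])) (orderOf_dvd_of_pow_eq_one hj))

theorem exists_hom_of_normal_Q8 (h : PQCond G) (hn : ¬ HasNormalPComplement 2 G) {Q : Subgroup G}
    [Q.Normal] (e : Q ≃* Q8) :
    (∃ f : G →* alternatingGroup (Fin 4), Function.Surjective f ∧ f.ker = centralizer Q) ∨
      ∃ f : G →* Equiv.Perm (Fin 4), Function.Surjective f ∧ f.ker = centralizer Q := by
  let c : G →* MulAut Q := MulAut.conjNormal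
  have hk : c.ker = centralizer Q := mem_ker_conjNormal
  have := isZGroup_centralizer_Q8 h e
  have h24 : Nat.card c.range ≤ 24 := by
    have := card_mulAut_Q8_le
    rw [← Nat.card_congr (MulAut.congr e).toEquiv] at this
    exact (Nat.card_le_card_of_injective _ Subtype.val_injective).trans this
  have h3 : 3 ∣ Nat.card c.range := by
    obtain ⟨g, hg, k, hgk⟩ := exists_not_mem_of_isZGroup h hn (centralizer (Q : Set G))
    by_contra h3
    refine hg (hk ▸ orderOf_eq_one_iff.1 (Nat.eq_one_of_dvd_coprimes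
      (((Nat.Prime.coprime_iff_not_dvd Nat.prime_three).2 h3).pow_left k)
      (orderOf_dvd_of_pow_eq_one (by rw [← map_pow, hgk, map_one])) ?_))
    exact orderOf_dvd_natCard c.range ⟨g, rfl⟩
  have h4 : 4 ∣ Nat.card c.range := by
    have h5 : (c.comp Q.subtype).ker = (center Q8).comap e := by
      ext x
      rw [← MonoidHom.comap_ker, hk, mem_comap, mem_comap, mem_center_iff, mem_centralizer_iff]
      constructor
      · intro hx y
        obtain ⟨y, rfl⟩ := e.surjective y
        rw [MonoidHom.coe_coe, ← map_mul, ← map_mul]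
        exact congrArg e (Subtype.ext (hx y y.2))
      · intro hx y hy
        have := hx (e ⟨y, hy⟩)
        rw [MonoidHom.coe_coe, ← map_mul, ← map_mul] at this
        exact congrArg Subtype.val (e.injective this)
    have h6 : (center Q8).index = 4 := by
      have h7 := (center Q8).card_mul_index
      rw [Nat.card_eq_fintype_card, Nat.card_eq_fintype_card,
        show Fintype.card (center Q8) = 2 by decide, QuaternionGroup.card] at h7
      omega
    rw [← h6, ← index_comap_of_surjective (f := (e : Q →* Q8)) _ e.surjective, ← h5, index_ker]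
    exact card_dvd_of_le (by rintro _ ⟨x, rfl⟩; exact ⟨x, rfl⟩)
  have h6 : ∀ g : c.range, orderOf g ≠ 6 := fun g hg => by
    rw [← orderOf_coe] at hg
    rcases mulAut_pow_of_equiv e g with h1 | h1 <;>
      exact absurd (hg ▸ orderOf_dvd_of_pow_eq_one h1) (by norm_num)
  have hpos : 0 < Nat.card c.range := Nat.card_pos
  have key : ∀ {X : Type} [Group X], Nonempty (c.range ≃* X) →
      ∃ f : G →* X, Function.Surjective f ∧ f.ker = centralizer Q := fun ⟨f⟩ =>
    ⟨f.toMonoidHom.comp c.rangeRestrict, f.surjective.comp c.rangeRestrict_surjective, by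
      rw [← MonoidHom.comap_ker, (MonoidHom.ker_eq_bot_iff _).2 f.injective, MonoidHom.comap_bot,
        MonoidHom.ker_rangeRestrict, hk]⟩
  rcases (by omega : Nat.card c.range = 12 ∨ Nat.card c.range = 24) with h7 | h7
  · exact Or.inl (key (Dickson.nonempty_equiv_A4 h7 h6))
  · exact Or.inr (key (Dickson.nonempty_equiv_S4 h7 h6))

/-- The map of a generalised quaternion group onto the four-group. -/
def quatToFour (n : ℕ) : QuaternionGroup (2 ^ (n + 1)) →* DihedralGroup 2 :=
  MonoidHom.mk' (fun g => match g with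
    | QuaternionGroup.a i => DihedralGroup.r (ZMod.castHom (dvd_mul_right 2 _) (ZMod 2) i)
    | QuaternionGroup.xa i => DihedralGroup.sr (ZMod.castHom (dvd_mul_right 2 _) (ZMod 2) i)) (by
    rintro (i | i) (j | j)
    · simp
    · simp
    · simp
    · have : ((2 ^ (n + 1) : ℕ) : ZMod 2) = 0 := (ZMod.natCast_eq_zero_iff _ _).2 ⟨2 ^ n, by ring⟩
      simp only [QuaternionGroup.xa_mul_xa, DihedralGroup.sr_mul_sr, map_sub, map_add, map_natCast,
        this, zero_add])

theorem exists_hom_four (h : PQCond G) (hn : HasNormalPComplement 2 G) (hZ : ¬ IsZGroup G) :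
    ∃ f : G →* DihedralGroup 2, Function.Surjective f ∧ IsZGroup f.ker := by
  obtain ⟨S, hS⟩ : ∃ S : Sylow 2 G, ¬ IsCyclic S := by
    by_contra hc
    push Not at hc
    exact hZ (isZGroup_of_sylow_two h hc)
  obtain ⟨K, _, hK⟩ := (Transfer.hasNormalPComplement_iff_sylow S).1 hn
  obtain ⟨-, n, hn, ⟨e⟩⟩ := ((h.subgroup S).cyclic_or_quaternion S.isPGroup').resolve_left hS
  obtain ⟨n, rfl⟩ := Nat.exists_eq_add_of_le' hn
  let π : G →* QuaternionGroup (2 ^ (n + 1)) :=
    (hK.symm.QuotientMulEquiv.trans e).toMonoidHom.comp (QuotientGroup.mk' K)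
  have hπ : π.ker = K := by
    rw [← MonoidHom.comap_ker, (MonoidHom.ker_eq_bot_iff _).2 (MulEquiv.injective _),
      MonoidHom.comap_bot, QuotientGroup.ker_mk']
  refine ⟨(quatToFour n).comp π, ?_, isZGroup_of_sylow_two (h.subgroup _) fun P => ?_⟩
  · refine Function.Surjective.comp (g := quatToFour n) ?_
      ((hK.symm.QuotientMulEquiv.trans e).surjective.comp (QuotientGroup.mk'_surjective K))
    have hs := ZMod.castHom_surjective (dvd_mul_right 2 (2 ^ (n + 1)))
    rintro (i | i) <;> obtain ⟨i, rfl⟩ := hs i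
    exacts [⟨QuaternionGroup.a i, rfl⟩, ⟨QuaternionGroup.xa i, rfl⟩]
  · let σ : P →* zpowers (QuaternionGroup.a 1 : QuaternionGroup (2 ^ (n + 1))) :=
      ((π.comp (Subgroup.subtype _)).comp (Subgroup.subtype _)).codRestrict _ fun x => by
        have hx : quatToFour n (π x) = 1 := x.1.2
        change π x ∈ _
        generalize π x = y at hx
        rcases y with i | i
        · exact ⟨i.val, by
            simp only [zpow_natCast, QuaternionGroup.a_one_pow, ZMod.natCast_zmod_val]⟩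
        · cases hx
    refine isCyclic_of_injective σ ((injective_iff_map_eq_one σ).2 fun x hx => ?_)
    have h1 : ((x : ((quatToFour n).comp π).ker) : G) ∈ K := hπ ▸ congrArg Subtype.val hx
    obtain ⟨k, hk⟩ := P.isPGroup' x
    have h2 : (Nat.card K).Coprime 2 := by
      rw [← hK.index_eq_card, Nat.coprime_comm, Nat.Prime.coprime_iff_not_dvd Nat.prime_two]
      exact S.not_dvd_index
    refine orderOf_eq_one_iff.1 (Nat.eq_one_of_dvd_coprimes (h2.pow_right k) ?_
      (orderOf_dvd_of_pow_eq_one hk))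
    rw [← orderOf_coe, ← orderOf_coe]
    exact orderOf_dvd_natCard K h1

/-- An elementary abelian two-quotient has order at most four. -/
theorem card_range_le_four (h : PQCond G) {H : Type*} [Group H] (f : G →* H)
    (hH : ∀ x : H, x * x = 1) : Nat.card f.range ≤ 4 := by
  classical
  obtain ⟨S⟩ : Nonempty (Sylow 2 G) := inferInstance
  have : Finite f.range := Finite.of_surjective _ f.rangeRestrict_surjective
  have h1 : ∀ y : f.range, ∃ s : S, f.rangeRestrict s = y := fun y => by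
    have h2 : IsPGroup 2 (⊤ : Subgroup f.range) := fun x =>
      ⟨1, Subtype.ext (Subtype.ext (by simpa [sq] using hH _))⟩
    have h3 := (S.mapSurjective f.rangeRestrict_surjective).is_maximal' h2 le_top
    rw [Sylow.coe_mapSurjective] at h3
    obtain ⟨s, hs, e⟩ : y ∈ (S : Subgroup G).map f.rangeRestrict := h3 ▸ mem_top y
    exact ⟨⟨s, hs⟩, e⟩
  have h2 : ∀ (x : f.range) (i : ℤ), x ^ i = 1 ∨ x ^ i = x := fun x i => by
    rw [zpow_eq_zpow_emod i (n := 2) (by rw [zpow_two]; exact Subtype.ext (hH _))]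
    rcases Int.emod_two_eq_zero_or_one i with e | e <;> simp [e]
  obtain ⟨a, b, hab⟩ : ∃ a b : S, ∀ s : S, ∃ i : ℤ, s = a ^ i ∨ s = a ^ i * b := by
    rcases exists_gens_of_forall_mem_zpowers S.isPGroup'
      (mem_zpowers_of_forall_card_sq_isCyclic S.isPGroup' (h.subgroup S).card_ne_sq) with
      ⟨a, ha⟩ | ⟨-, a, b, m, hi, -, hb, -⟩
    · exact ⟨a, 1, fun s => (ha s).imp fun i e => Or.inl e.symm⟩
    · exact ⟨a, b, exists_eq_zpow_or_of_index_two hi hb⟩
  let φ := f.rangeRestrict.comp (S : Subgroup G).subtype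
  have h3 : (Set.univ : Set f.range) ⊆ ({1, φ a, φ b, φ a * φ b} : Finset f.range) := by
    intro y _
    obtain ⟨s, rfl⟩ := h1 y
    change φ s ∈ _
    obtain ⟨i, rfl | rfl⟩ := hab s <;> rcases h2 (φ a) i with e | e <;> simp [e]
  rw [← Set.ncard_univ]
  exact (Set.ncard_le_ncard h3).trans (by rw [Set.ncard_coe_finset]; exact Finset.card_le_four)

end CfsgLib.FrobCompl
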